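import Cfsg.Agent.H780.P9.Iface

/-!
# S5925, box H: the WP lemmas of the stages `plT*`, `plL*`, `plC*` (helper518)

`wp_Ca`, `wp_Cb1`, `wp_Cb2`, `wp_Cb3`, `wp_Ca0`, `wp_Cb10`, `wp_Cb20`, `wp_Cz` (plan v3).
-/

set_option autoImplicit false
set_option linter.style.longLine false

namespace Cfsg.Agent.H518.P9
open Matrix Cfsg.Agent.H879.E83 Cfsg.Agent.H780.P9

section
variable {F : Type*} [Field F] {g : F} {q p : Mt F} {m : F} {t : Fin 10 → F} {A : Plan}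

/-- scalars 0 .. 18 -/
def K19 (g : F) (p : Mt F) (t : Fin 10 → F) : List F :=
  [t 0, t 1, t 2, t 3, t 4, t 5, t 6, QQ p 0 1, QQ p 1 3, QQ p 1 1, B02 t, B00 g t, B03 g t, B04 g t,
   p 1 1, p 0 1, p 1 2, p 1 3, p 1 4]

/-- the lanes stage with continuation `A` -/
def stT (A : Plan) : Plan :=
  (.df (.add (.add (.mul (.v 1) (.k 21)) (.k 25)) (.mul (.v 0) (.k 20)))
  (.df (.add (.add (.mul (.v 0) (.k 21)) (.k 26)) (.mul (.v 2) (.k 20)))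
  (.df (.mul (.v 1) (.fr (.fr (.v 0))))
  (.df (.mul (.v 0) (.fr (.fr (.v 2))))
  (.df (.add (.k 27) (.add (.v 5) (.fr (.fr (.v 5)))))
  (.df (.add (.k 28) (.add (.v 6) (.fr (.fr (.v 6)))))
  (.sel [0, 1, 2, 3, 4, 7, 8]
  A)))))))

/-- the stage with continuation `A` -/
def stL (A : Plan) : Plan :=
  (.alt [.zero, (.pw 0), (.neg (.pw 0))]
  (.kf (.add (.k 10) (.mul (.pw 20) (.k 29)))
  (.kf (.add (.k 11) (.mul (.pw 60) (.k 29)))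
  (.kf (.fr (.fr (.k 31)))
  (.ex (.fl [(.sub (.mul (.v 0) (.fr (.fr (.v 0)))) (.k 30))] [0]
  (.ksp (.k 31)
  (.or (.ex (.df .zero
  (.sel [0, 1, 3]
  A)))
  (.exn (.df .zero
  (.sel [0, 3, 1]
  A))))
  (.exn (.df (.mul (.k 32) (.fr (.fr (.v 2))))
  (.sel [0, 1, 3]
  A))))))))))

/-- the constants -/
def stC (A : Plan) : Plan :=
  (.kf (.fr (.fr (.k 14)))
  (.kf (.fr (.fr (.k 15)))
  (.kf (.fr (.fr (.k 16)))
  (.kf (.fr (.fr (.k 17)))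
  (.kf (.fr (.fr (.k 18)))
  (.kf (.mul (.k 23) (.mul (.mul (.mul (.fr (.k 23)) (.fr (.fr (.k 23)))) (.fr (.fr (.fr (.k 23))))) (.mul (.mul (.fr (.k 23)) (.fr (.fr (.k 23)))) (.fr (.fr (.fr (.k 23)))))))
  (.kf (.mul (.k 15) (.k 19))
  (.kf (.mul (.k 16) (.k 19))
  (.kf (.mul (.k 15) (.k 20))
  (.kf (.mul (.k 16) (.k 21))
  A))))))))))

theorem p9 (x : F) : (x ^ 3) ^ 3 = x ^ 9 := (pow_mul x 3 3).symm

theorem wp_stT (h : WC g q p t A) : WP g (Sol g q) (stT A) (K33 g p t) [p 0 2, p 0 0, p 2 2] := by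
  refine WP_df (x := p 0 0 * p 1 2 ^ 9 + p 0 1 * p 1 1 ^ 9 + p 0 2 * p 0 1 ^ 9) rfl ?_
  refine WP_df (x := p 0 2 * p 1 2 ^ 9 + p 1 2 * p 1 1 ^ 9 + p 2 2 * p 0 1 ^ 9) rfl ?_
  refine WP_df (x := p 0 0 * p 0 2 ^ 9) ?_ ?_
  · show p 0 0 * (p 0 2 ^ 3) ^ 3 = _
    rw [p9]
  refine WP_df (x := p 0 2 * p 2 2 ^ 9) ?_ ?_
  · show p 0 2 * (p 2 2 ^ 3) ^ 3 = _
    rw [p9]
  refine WP_df (x := p 0 1 * p 0 1 ^ 9 + (p 0 0 * p 0 2 ^ 9 + (p 0 0 * p 0 2 ^ 9) ^ 9)) ?_ ?_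
  · show p 0 1 * p 0 1 ^ 9 + (p 0 0 * p 0 2 ^ 9 + ((p 0 0 * p 0 2 ^ 9) ^ 3) ^ 3) = _
    rw [p9]
  refine WP_df (x := p 1 2 * p 1 2 ^ 9 + (p 0 2 * p 2 2 ^ 9 + (p 0 2 * p 2 2 ^ 9) ^ 9)) ?_ ?_
  · show p 1 2 * p 1 2 ^ 9 + (p 0 2 * p 2 2 ^ 9 + ((p 0 2 * p 2 2 ^ 9) ^ 3) ^ 3) = _
    rw [p9]
  exact WP_sel (ls' := LC p) rfl h

theorem exists_tr {x : F} (h : x = 0 ∨ x = 1 ∨ x = -1) (ks ls : List F) :
    ∃ e ∈ ([.zero, (.pw 0), (.neg (.pw 0))] : List Ex), e.eval g ks ls = x := by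
  rcases h with rfl | rfl | rfl
  · exact ⟨.zero, by simp, rfl⟩
  · exact ⟨.pw 0, by simp, pow_zero g⟩
  · exact ⟨.neg (.pw 0), by simp, congrArg Neg.neg (pow_zero g)⟩

theorem pow80 (c : Ctx g q p m t) {a b : Fin 5} (h : p a b ≠ 0) : p a b ^ 80 = 1 := pow80_of (c.p81 a b) h

theorem wp_stL (c : Ctx g q p m t) (h : WP g (Sol g q) A (K33 g p t) [p 0 2, p 0 0, p 2 2]) :
    WP g (Sol g q) (stL A) (K29 g p t) [] := by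
  obtain ⟨e, he, hx⟩ := exists_tr (g := g) (c.tr 7) (K29 g p t) []
  refine WP_alt e he hx ?_
  refine WP_kf (x := QQ p 0 2) c.Q02.symm ?_
  refine WP_kf (x := QQ p 0 0) c.Q00.symm ?_
  refine WP_kf (x := QQ p 0 0 ^ 9) (p9 _) ?_
  refine WP_ex (p 0 2) (c.p81 0 2) ?_
  refine WP_fl (ls' := [p 0 2]) ?_ rfl ?_
  · intro d hd
    rw [List.mem_singleton] at hd
    subst hd
    show p 0 2 * (p 0 2 ^ 3) ^ 3 - p 0 2 * p 2 0 ^ 9 = 0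
    rw [p9, c.sym 2 0, sub_self]
  have e0 : QQ p 0 0 = p 0 0 * p 2 2 ^ 9 := rfl
  refine WP_ksp ?_ ?_
  · intro h0
    have h1 : p 0 0 * p 2 2 ^ 9 = 0 := h0
    by_cases h2 : p 2 2 = 0
    · refine WP_or_left (WP_ex (p 0 0) (c.p81 0 0) (WP_df (x := 0) rfl (WP_sel (ls' := [p 0 2, p 0 0, p 2 2]) ?_ h)))
      rw [h2]; rfl
    · have h3 : p 0 0 = 0 := (mul_eq_zero.1 h1).resolve_right (pow_ne_zero _ h2)
      refine WP_or_right (WP_exn (p 2 2) (pow80 c h2) (WP_df (x := 0) rfl (WP_sel (ls' := [p 0 2, p 0 0, p 2 2]) ?_ h)))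
      rw [h3]; rfl
  · intro h0
    have h1 : p 0 0 * p 2 2 ^ 9 ≠ 0 := h0
    have h2 : p 0 0 ≠ 0 := left_ne_zero_of_mul h1
    refine WP_exn (p 0 0) (pow80 c h2) (WP_df (x := p 2 2) ?_ (WP_sel (ls' := [p 0 2, p 0 0, p 2 2]) rfl h))
    show (p 0 0 * p 2 2 ^ 9) ^ 9 * ((p 0 0 ^ 79) ^ 3) ^ 3 = p 2 2
    calc (p 0 0 * p 2 2 ^ 9) ^ 9 * ((p 0 0 ^ 79) ^ 3) ^ 3 = (p 0 0 ^ 80) ^ 9 * p 2 2 ^ 81 := by ring
      _ = p 2 2 := by rw [pow80 c h2, one_pow, one_mul, c.p81]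

theorem wp_stC (h : WP g (Sol g q) A (K29 g p t) []) : WP g (Sol g q) (stC A) (K19 g p t) [] := by
  refine WP_kf (x := p 1 1 ^ 9) (p9 _) ?_
  refine WP_kf (x := p 0 1 ^ 9) (p9 _) ?_
  refine WP_kf (x := p 1 2 ^ 9) (p9 _) ?_
  refine WP_kf (x := p 1 3 ^ 9) (p9 _) ?_
  refine WP_kf (x := p 1 4 ^ 9) (p9 _) ?_
  refine WP_kf (x := (p 1 4 ^ 9) ^ 79) ?_ ?_
  · show (p 1 4 ^ 9) * ((((p 1 4 ^ 9) ^ 3) * (((p 1 4 ^ 9) ^ 3) ^ 3)) * ((((p 1 4 ^ 9) ^ 3) ^ 3) ^ 3) *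
      ((((p 1 4 ^ 9) ^ 3) * (((p 1 4 ^ 9) ^ 3) ^ 3)) * ((((p 1 4 ^ 9) ^ 3) ^ 3) ^ 3))) = _
    generalize p 1 4 ^ 9 = y
    ring
  refine WP_kf (x := p 0 1 * p 1 1 ^ 9) rfl ?_
  refine WP_kf (x := p 1 2 * p 1 1 ^ 9) rfl ?_
  refine WP_kf (x := p 0 1 * p 0 1 ^ 9) rfl ?_
  exact WP_kf (x := p 1 2 * p 1 2 ^ 9) rfl h

theorem wp_st (c : Ctx g q p m t) (h : WC g q p t A) : WP g (Sol g q) (stC (stL (stT A))) (K19 g p t) [] :=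
  wp_stC (wp_stL c (wp_stT h))

theorem wp_Ca (c : Ctx g q p m t) (h : WC g q p t plAlpha) : WP g (Sol g q) plCa (K19 g p t) [] := wp_st c h
theorem wp_Cb1 (c : Ctx g q p m t) (h : WC g q p t plBeta1) : WP g (Sol g q) plCb1 (K19 g p t) [] := wp_st c h
theorem wp_Cb2 (c : Ctx g q p m t) (h : WC g q p t plBeta2) : WP g (Sol g q) plCb2 (K19 g p t) [] := wp_st c h
theorem wp_Cb3 (c : Ctx g q p m t) (h : WC g q p t plBeta3) : WP g (Sol g q) plCb3 (K19 g p t) [] := wp_st c h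
theorem wp_Ca0 (c : Ctx g q p m t) (h : WC g q p t plAlpha0) : WP g (Sol g q) plCa0 (K19 g p t) [] := wp_st c h
theorem wp_Cb10 (c : Ctx g q p m t) (h : WC g q p t plBeta10) : WP g (Sol g q) plCb10 (K19 g p t) [] := wp_st c h
theorem wp_Cb20 (c : Ctx g q p m t) (h : WC g q p t plBeta20) : WP g (Sol g q) plCb20 (K19 g p t) [] := wp_st c h
theorem wp_Cz (c : Ctx g q p m t) (h : WC g q p t plZ0) : WP g (Sol g q) plCz (K19 g p t) [] := wp_st c h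

end
end Cfsg.Agent.H518.P9
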